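import Cfsg.Agent.H24.Fi23.Local
import Cfsg.Agent.H87.Fi23A.Uniq.Model
import Cfsg.Agent.H53.SubPrimitive

/-!
The conjugates of an involution with such a centralizer form a primitive class of 3-transpositions
with trivial centre and quotient of type M(22) around the involution.
-/

set_option autoImplicit false
set_option linter.unusedSectionVars false

namespace Cfsg.Agent.H24.Fi23

open Subgroup
open Cfsg.Agent.H43.FischerTwins
open Cfsg.Agent.H53 (nearImage NearQuot)

variable {G : Type*} [Group G] [Finite G] {Q : Type*} [Group Q] [Finite Q]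

namespace Setting

variable {d : G} {π : ↥(centralizer ({d} : Set G)) →* Q} {z a : ↥(centralizer ({d} : Set G))}
  {E : Set Q} (hS : Setting d π z a E)
include hS

theorem self_mem : d ∈ conjugatesOf d := mem_conjugatesOf_self

theorem sset_count {x : G} (hx : x ∈ conjugatesOf d) :
    (Sset (conjugatesOf d) x).ncard = 3510 := by
  obtain ⟨g, rfl⟩ := isConj_iff.1 (show IsConj d x from hx)
  rw [show g * d * g⁻¹ = MulAut.conj g d from rfl,
    ← H89.M23.image_sset (MulAut.conj g) (fun y hy => hS.conj_mem g hy) d,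
    Set.ncard_image_of_injective _ (MulAut.conj g).injective, hS.sset_ncard]

theorem near_count {x y : G} (hx : x ∈ conjugatesOf d) (hy : y ∈ Sset (conjugatesOf d) x) :
    ({w | w ∈ Sset (conjugatesOf d) x ∧ w ≠ y ∧ Commute y w}).ncard = 693 := by
  obtain ⟨g, rfl⟩ := isConj_iff.1 (show IsConj d x from hx)
  obtain ⟨y, rfl⟩ : ∃ y', g * y' * g⁻¹ = y := ⟨g⁻¹ * y * g, by group⟩
  have hconj : ∀ g : G, ∀ w ∈ conjugatesOf d, g * w * g⁻¹ ∈ conjugatesOf d := fun g w hw =>
    hS.conj_mem g hw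
  rw [sset_conj hconj] at hy
  rw [← hS.near_ncard hy]
  refine Eq.trans ?_ (Set.ncard_image_of_injective _ (MulAut.conj g).injective)
  congr 1
  ext w
  obtain ⟨w, rfl⟩ : ∃ w', g * w' * g⁻¹ = w := ⟨g⁻¹ * w * g, by group⟩
  rw [show g * w * g⁻¹ = MulAut.conj g w from rfl, (MulAut.conj g).injective.mem_set_image]
  simp only [Set.mem_setOf_eq, MulAut.conj_apply, sset_conj hconj, H17.commute_conj, ne_eq,
    mul_left_inj, mul_right_inj]

/-- Some conjugate does not commute with the involution. -/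
theorem exists_far : ∃ w ∈ conjugatesOf d, ¬ Commute d w := by
  obtain ⟨x, hx⟩ := hS.partner hS.self_mem
  by_contra hne
  push Not at hne
  have hsub : Sset (conjugatesOf d) x ⊆
      insert d {w | w ∈ Sset (conjugatesOf d) d ∧ w ≠ x ∧ Commute x w} := fun w hw => by
    by_cases e : w = d
    · exact Or.inl e
    · exact Or.inr ⟨⟨hw.1, e, hne w hw.1⟩, hw.2.1, hw.2.2⟩
  have h1 := (Set.ncard_le_ncard hsub (Set.toFinite _)).trans (Set.ncard_insert_le _ _)
  rw [hS.sset_count hx.1, hS.near_count hS.self_mem hx] at h1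
  omega

/-- The conjugates generate the group. -/
theorem closure_top : closure (conjugatesOf d) = ⊤ := by
  obtain ⟨N, hN⟩ : ∃ N, N = closure (conjugatesOf d) := ⟨_, rfl⟩
  have hDN : ∀ x ∈ conjugatesOf d, x ∈ N := fun x hx => hN ▸ subset_closure hx
  have hCN : centralizer ({d} : Set G) ≤ N := by
    rw [← hS.closure_sset, hN]; exact closure_mono fun x hx => hx.1
  -- one orbit under `N`
  let R : G → G → Prop := fun x y => ∃ n ∈ N, n * x * n⁻¹ = y
  have Rt : ∀ {x y w}, R x y → R y w → R x w := by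
    rintro x y w ⟨n, hn, rfl⟩ ⟨m, hm, rfl⟩
    exact ⟨m * n, mul_mem hm hn, by group⟩
  have Rs : ∀ {x y}, R x y → R y x := by
    rintro x y ⟨n, hn, rfl⟩
    exact ⟨n⁻¹, inv_mem hn, by group⟩
  have Rb : ∀ {x y}, x ∈ conjugatesOf d → y ∈ conjugatesOf d → ¬ Commute x y → R x y :=
    fun {x y} hx hy h => by
      refine ⟨x * y, mul_mem (hDN x hx) (hDN y hy), ?_⟩
      have hb := H17.braid hS.three_set hx hy h
      rw [mul_inv_rev, H17.inv_self hS.three_set hx, H17.inv_self hS.three_set hy]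
      calc x * y * x * (y * x) = y * x * y * (y * x) := by rw [hb]
        _ = y * x * (y * y) * x := by simp only [mul_assoc]
        _ = y := by rw [H17.sq_one hS.three_set hy, mul_one, mul_assoc,
          H17.sq_one hS.three_set hx, mul_one]
  have RL : ∀ {x y}, x ∈ Sset (conjugatesOf d) d → y ∈ Sset (conjugatesOf d) d → R x y := by
    intro x y hx hy
    obtain ⟨u, hu, rfl⟩ := hS.mem_sset.1 hx
    obtain ⟨v, hv, rfl⟩ := hS.mem_sset.1 hy
    obtain ⟨g, rfl⟩ := isConj_iff.1 ((show IsConj a u from hu).symm.trans (show IsConj a v from hv))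
    exact ⟨g, hCN g.2, rfl⟩
  obtain ⟨w, hw, hdw⟩ := hS.exists_far
  -- some partner does not commute with `w`
  obtain ⟨q, hq, hqw⟩ : ∃ q ∈ Sset (conjugatesOf d) d, ¬ Commute w q := by
    by_contra hne
    push Not at hne
    have e : Sset (conjugatesOf d) d = Sset (conjugatesOf d) w := by
      refine Set.eq_of_subset_of_ncard_le (fun q hq => ⟨hq.1, fun e => hdw (e ▸ hq.2.2), hne q hq⟩)
        ?_ (Set.toFinite _)
      rw [hS.sset_count hw, hS.sset_ncard]
    have hdC : d ∈ closure (Sset (conjugatesOf d) d) :=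
      hS.closure_sset ▸ mem_centralizer_singleton_iff.2 rfl
    have hle : closure (Sset (conjugatesOf d) d) ≤ centralizer ({w} : Set G) := by
      rw [e, closure_le]
      exact fun v hv => mem_centralizer_singleton_iff.2 hv.2.2.symm.eq
    exact hdw (mem_centralizer_singleton_iff.1 (hle hdC))
  have Rd : ∀ x ∈ conjugatesOf d, R d x := by
    intro x hx
    by_cases hxd : x = d
    · exact ⟨1, one_mem _, by rw [hxd]; group⟩
    by_cases hc : Commute d x
    · exact Rt (Rb hS.self_mem hw hdw) (Rt (Rb hw hq.1 hqw) (RL hq ⟨hx, hxd, hc⟩))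
    · exact Rb hS.self_mem hx hc
  rw [← hN, eq_top_iff]
  intro g _
  obtain ⟨n, hn, e⟩ := Rd _ (isConj_iff.2 ⟨g, rfl⟩ : g * d * g⁻¹ ∈ conjugatesOf d)
  have : n⁻¹ * g ∈ centralizer ({d} : Set G) := by
    rw [mem_centralizer_singleton_iff]
    calc n⁻¹ * g * d = n⁻¹ * (g * d * g⁻¹) * g := by group
      _ = d * (n⁻¹ * g) := by rw [← e]; group
  simpa using mul_mem hn (hCN this)

theorem cls : Cfsg.IsThreeTranspositionClass (conjugatesOf d) :=
  ⟨hS.three_set, ⟨d, hS.self_mem, rfl⟩, hS.closure_top⟩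

/-- The centre of the centralizer. -/
theorem center_C {c : ↥(centralizer ({d} : Set G))}
    (hc : c ∈ center ↥(centralizer ({d} : Set G))) : c = 1 ∨ c = z := by
  refine (hS.cov.ker c).1 ?_
  rw [← Subgroup.mem_bot, ← hS.cov.h22.1, mem_center_iff]
  intro u
  obtain ⟨h, rfl⟩ := hS.cov.surj u
  rw [← map_mul, ← map_mul, mem_center_iff.1 hc h]

theorem center_bot : center G = ⊥ := by
  rw [eq_bot_iff]
  intro c hc
  have hcd : c ∈ centralizer ({d} : Set G) :=
    mem_centralizer_singleton_iff.2 (mem_center_iff.1 hc d).symm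
  rcases hS.center_C (c := ⟨c, hcd⟩)
    (mem_center_iff.2 fun u => Subtype.ext (mem_center_iff.1 hc u)) with e | e
  · exact Subgroup.mem_bot.2 (congrArg Subtype.val e)
  · obtain ⟨w, -, hdw⟩ := hS.exists_far
    have : c = d := (congrArg Subtype.val e).trans hS.hz
    exact absurd (this ▸ (mem_center_iff.1 hc w).symm) hdw

/-- The quotient around the involution. -/
theorem near_equiv : ∃ ψ : Q ≃* NearQuot (conjugatesOf d) d,
    ψ '' E = nearImage (conjugatesOf d) d := by
  obtain ⟨ι, hι⟩ : ∃ ι : ↥(centralizer ({d} : Set G)) ≃* ↥(closure (Sset (conjugatesOf d) d)),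
      ∀ x, (ι x : G) = x := ⟨MulEquiv.subgroupCongr hS.closure_sset.symm, fun _ => rfl⟩
  obtain ⟨f, hf⟩ : ∃ f, f = (QuotientGroup.mk' (center ↥(closure (Sset (conjugatesOf d) d)))).comp
      ι.toMonoidHom := ⟨_, rfl⟩
  have hfsurj : Function.Surjective f := by
    rw [hf]; exact (QuotientGroup.mk'_surjective _).comp ι.surjective
  have hmem : ∀ x, f x = 1 ↔ x ∈ center ↥(centralizer ({d} : Set G)) := fun x => by
    rw [hf, MonoidHom.comp_apply, QuotientGroup.mk'_apply, QuotientGroup.eq_one_iff]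
    constructor
    · exact fun h => mem_center_iff.2 fun u => ι.injective (by
        rw [map_mul, map_mul]; exact mem_center_iff.1 h (ι u))
    · intro h
      refine mem_center_iff.2 fun u => ?_
      obtain ⟨u, rfl⟩ := ι.surjective u
      show ι u * ι x = ι x * ι u
      rw [← map_mul, ← map_mul, mem_center_iff.1 h u]
  have hker : f.ker = π.ker := by
    ext x
    rw [MonoidHom.mem_ker, MonoidHom.mem_ker, hmem]
    constructor
    · intro h
      exact (hS.cov.ker x).2 (hS.center_C h)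
    · intro h
      rcases (hS.cov.ker x).1 h with rfl | rfl
      · exact one_mem _
      · exact mem_center_iff.2 fun u => (hS.cov.zc u).eq.symm
  obtain ⟨ψ, hψ⟩ : ∃ ψ : Q ≃* NearQuot (conjugatesOf d) d, ∀ x, ψ (π x) = f x := by
    refine ⟨(QuotientGroup.quotientKerEquivOfSurjective π hS.cov.surj).symm.trans
      ((QuotientGroup.quotientMulEquivOfEq hker.symm).trans
        (QuotientGroup.quotientKerEquivOfSurjective f hfsurj)), fun x => ?_⟩
    have e : (QuotientGroup.quotientKerEquivOfSurjective π hS.cov.surj).symm (π x) =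
        (x : ↥(centralizer ({d} : Set G)) ⧸ π.ker) := (MulEquiv.symm_apply_eq _).2 rfl
    rw [MulEquiv.trans_apply, e]
    rfl
  refine ⟨ψ, ?_⟩
  ext w
  constructor
  · rintro ⟨u, hu, rfl⟩
    obtain ⟨x, hx, rfl⟩ := hS.cov.onto hS.ha hu
    rw [hψ, hf]
    exact ⟨ι x, show (ι x : G) ∈ _ from hS.mem_sset.2 ⟨x, hx, (hι x).symm⟩, rfl⟩
  · rintro ⟨y, hy, rfl⟩
    obtain ⟨x, hx, e⟩ := hS.mem_sset.1 hy
    refine ⟨π x, hS.mem_E hx, ?_⟩
    rw [hψ, hf]
    show (QuotientGroup.mk (ι x) : NearQuot (conjugatesOf d) d) = _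
    rw [show ι x = y from Subtype.ext ((hι x).trans e)]

theorem near : H87.Fi23A.Near23 (conjugatesOf d) := by
  obtain ⟨ψ, hψ⟩ := hS.near_equiv
  exact ⟨hS.center_bot, d, hS.self_mem, hψ ▸ H43.M23.m22_map ψ hS.cov.h22⟩

theorem prim : Cfsg.IsPrimitiveUnderConj (conjugatesOf d) := by
  obtain ⟨ψ, hψ⟩ := hS.near_equiv
  have hcl := hψ ▸ H89.M23.class_map ψ hS.cov.cls
  have hp := hψ ▸ H89.M23.primitive_map ψ hS.cov.prim
  obtain ⟨b, hb⟩ := hS.partner hS.self_mem
  have hwQ : ∃ u ∈ nearImage (conjugatesOf d) d, ∃ v ∈ nearImage (conjugatesOf d) d,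
      u ≠ v ∧ Commute u v := by
    obtain ⟨v, hv⟩ := Set.nonempty_of_ncard_ne_zero (show (Sset E (π a)).ncard ≠ 0 by
      rw [H43.M22.sset_ncard hS.cov.cls hS.cov.prim hS.cov.h22 hS.ha]; norm_num)
    exact ⟨ψ (π a), hψ ▸ ⟨_, hS.ha, rfl⟩, ψ v, hψ ▸ ⟨_, hv.1, rfl⟩,
      fun e => hv.2.1 (ψ.injective e).symm, hv.2.2.map ψ.toMonoidHom⟩
  refine H53.primitive_of_local hS.cls hS.center_bot ⟨d, hS.self_mem, b, hb.1, hb.2.1.symm, hb.2.2⟩
    (H53.local_up (H17.class_group hS.cls) hS.self_mem (H53.local_of_primitive hcl hp hwQ))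
    fun x hx y hy h => ?_
  obtain ⟨p, hp'⟩ := hS.partner hx
  obtain ⟨g, hgx, hgy⟩ := hS.loc.diameter hx hy h hp'
  exact ⟨g, hgx.1, hgx.2.2.symm, hgy.2.2.symm⟩

/-- The class, its primitivity and, given a group of type M(23), the type and the isomorphism. -/
theorem of_model {X : Type*} [Group X] [Finite X] {M : Set X}
    (hM : Cfsg.IsThreeTranspositionClass M) (hMprim : Cfsg.IsPrimitiveUnderConj M)
    (hMtyp : Cfsg.IsOfTypeM23 X M) :
    Cfsg.IsOfTypeM23 G (conjugatesOf d) ∧ ∃ e : X ≃* G, e '' M = conjugatesOf d :=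
  H87.Fi23A.of_model hS.cls hS.prim hS.near hM hMprim hMtyp

end Setting

end Cfsg.Agent.H24.Fi23
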