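import Cfsg.Agent.H24.Fi23.Main
import Cfsg.Agent.H89.Fi22Type

/-!
An involution whose centralizer is a non-split double cover of Fi22.
-/

set_option autoImplicit false
set_option linter.unusedSectionVars false

namespace Cfsg.Agent.H24.Fi23

open Subgroup
open scoped commutatorElement

/-- A non-split double cover of a simple group that is not commutative is quasisimple. -/
theorem quasisimple_of_nonsplit {H K : Type*} [Group H] [Finite H] [Group K]
    (h : Cfsg.IsNonsplitDoubleCover H K) [IsSimpleGroup K] (nab : ∃ x y : K, ¬ Commute x y) :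
    Cfsg.IsQuasisimple H := by
  classical
  obtain ⟨h2, ⟨f⟩, hns⟩ := h
  refine ⟨Group.isPerfect_def.2 ?_, (MulEquiv.isSimpleGroup_congr f).2 inferInstance⟩
  obtain ⟨P, hP⟩ : ∃ P, P = commutator H := ⟨_, rfl⟩
  rw [← hP]
  haveI : P.Normal := hP ▸ Subgroup.commutator_normal ⊤ ⊤
  let p : H →* K := f.toMonoidHom.comp (QuotientGroup.mk' (center H))
  have hp : Function.Surjective p := f.surjective.comp (QuotientGroup.mk'_surjective _)
  have hpk : ∀ x, p x = 1 ↔ x ∈ center H := fun x =>
    (MulEquiv.map_eq_one_iff f).trans (QuotientGroup.eq_one_iff x)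
  have htop : P.map p = ⊤ := by
    haveI := Subgroup.Normal.map (inferInstance : P.Normal) p hp
    refine (IsSimpleGroup.eq_bot_or_eq_top_of_normal _ inferInstance).resolve_left fun hb => ?_
    obtain ⟨x, y, hxy⟩ := nab
    obtain ⟨u, rfl⟩ := hp x
    obtain ⟨v, rfl⟩ := hp y
    refine hxy ?_
    have hm : p ⁅u, v⁆ ∈ P.map p :=
      mem_map_of_mem p (hP ▸ commutator_mem_commutator (mem_top u) (mem_top v))
    rw [hb, mem_bot, commutatorElement_def] at hm
    simp only [map_mul, map_inv] at hm
    show p u * p v = p v * p u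
    rw [mul_inv_eq_one] at hm
    exact mul_inv_eq_iff_eq_mul.1 hm
  have hsup : center H ⊔ P = ⊤ := by
    rw [eq_top_iff]
    intro x _
    obtain ⟨y, hy, e⟩ := (htop ▸ mem_top (p x) : p x ∈ P.map p)
    have hz : x * y⁻¹ ∈ center H := (hpk _).1 (by rw [map_mul, map_inv, e, mul_inv_cancel])
    have := mul_mem (mem_sup_left (T := P) hz) (mem_sup_right (S := center H) hy)
    rwa [inv_mul_cancel_right] at this
  by_contra hne
  refine hns P (Subgroup.isComplement'_of_disjoint_and_mul_eq_univ ?_ ?_)
  · rw [disjoint_iff]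
    by_contra hb
    have hle : center H ⊓ P = center H := by
      refine Subgroup.eq_of_le_of_card_ge inf_le_left ?_
      rw [h2]
      haveI : Nontrivial ↥(center H ⊓ P) := (Subgroup.nontrivial_iff_ne_bot _).2 hb
      exact Finite.one_lt_card
    exact hne (by rwa [sup_eq_right.2 (inf_eq_left.1 hle)] at hsup)
  · rw [← Subgroup.normal_mul, hsup, coe_top]

variable {G : Type*} [Group G] [Finite G]

/-- A quotient isomorphic to Fi22 is of type M(22). -/
theorem type_of_iso_fi22 {A : Type*} [Group A] [Finite A] (e : A ≃* Cfsg.Spor.Fi22) :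
    ∃ E : Set A, Cfsg.IsThreeTranspositionClass E ∧ Cfsg.IsOfTypeM22 A E := by
  haveI := H89.Fi22Type.finite_fi22
  exact ⟨e.symm '' H89.Fi22Type.cls, H89.M23.class_map e.symm H89.Fi22Type.cls_class,
    H43.M23.m22_map e.symm H89.Fi22Type.isOfTypeM22⟩

/-- The hypotheses for an involution with a non-split double cover of Fi22 as centralizer. -/
theorem hyps_of_double (d : G) (hd : orderOf d = 2)
    (h : Cfsg.IsNonsplitDoubleCover ↥(centralizer ({d} : Set G)) Cfsg.Spor.Fi22) :
    Cfsg.IsQuasisimple ↥(centralizer ({d} : Set G)) ∧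
    ∃ _ : ((zpowers d).subgroupOf (centralizer ({d} : Set G))).Normal,
      ∃ E : Set (↥(centralizer ({d} : Set G)) ⧸ (zpowers d).subgroupOf (centralizer ({d} : Set G))),
        Cfsg.IsThreeTranspositionClass E ∧ Cfsg.IsOfTypeM22 _ E := by
  haveI := H16.Fi22Order.isSimple
  have nab : ∃ x y : Cfsg.Spor.Fi22, ¬ Commute x y := by
    obtain ⟨-, x, -, y, -, hxy, -⟩ := H89.Fi22Type.isOfTypeM22
    exact ⟨x, y, hxy⟩
  have hq := quasisimple_of_nonsplit h nab
  have hle : (zpowers d).subgroupOf (centralizer ({d} : Set G)) ≤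
      center ↥(centralizer ({d} : Set G)) := by
    intro x hx
    rw [mem_subgroupOf] at hx
    obtain ⟨k, hk⟩ := mem_zpowers_iff.1 hx
    refine mem_center_iff.2 fun u => Subtype.ext ?_
    show (u : G) * x = x * u
    rw [← hk]
    exact ((show Commute (u : G) d from mem_centralizer_singleton_iff.1 u.2).zpow_right k).eq
  haveI : ((zpowers d).subgroupOf (centralizer ({d} : Set G))).Normal :=
    ⟨fun n hn g => by rwa [mem_center_iff.1 (hle hn) g, mul_inv_cancel_right]⟩
  obtain ⟨h2, ⟨f⟩, -⟩ := h
  have hc : Nat.card ↥((zpowers d).subgroupOf (centralizer ({d} : Set G))) = 2 := by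
    rw [Nat.card_congr (subgroupOfEquivOfLe
      (zpowers_le.2 (mem_centralizer_singleton_iff.2 rfl))).toEquiv, Nat.card_zpowers, hd]
  have e : (zpowers d).subgroupOf (centralizer ({d} : Set G)) = center ↥(centralizer ({d} : Set G)) :=
    Subgroup.eq_of_le_of_card_ge hle (by rw [hc, h2])
  exact ⟨hq, inferInstance,
    type_of_iso_fi22 ((QuotientGroup.quotientMulEquivOfEq e).trans f)⟩

end Cfsg.Agent.H24.Fi23
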