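import Cfsg.Agent.H87.Fi23A.Fusion
import Cfsg.Agent.H24.Fi23.ThreeTrans
import Cfsg.Agent.H43.M22Graph

/-!
The picture around an involution whose centralizer is a perfect double cover of a group of type M(22) and
whose conjugates in the centralizer are the involution and one class of lifts.
-/

set_option autoImplicit false
set_option linter.unusedSectionVars false

namespace Cfsg.Agent.H24.Fi23

open Subgroup
open Cfsg.Agent.H43.FischerTwins
open Cfsg.Agent.H87.Fi23A (Cover Hexad Block)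

variable {G : Type*} [Group G] [Finite G] {Q : Type*} [Group Q] [Finite Q]

/-- An involution with such a centralizer and such fusion. -/
structure Setting (d : G) (π : ↥(centralizer ({d} : Set G)) →* Q)
    (z a : ↥(centralizer ({d} : Set G))) (E : Set Q) : Prop where
  hd : orderOf d = 2
  hz : (z : G) = d
  cov : Cover π z E
  ha : π a ∈ E
  hex : Hexad π E z a
  fus : ∀ x : ↥(centralizer ({d} : Set G)), IsConj d (x : G) ↔ x = z ∨ x ∈ conjugatesOf a
  two : ∀ P : Subgroup G, IsPGroup 2 P → ∃ g : G, ∀ x ∈ P, Commute x (g * d * g⁻¹)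

theorem Seen.conj {D : Set G} (hconj : ∀ g : G, ∀ d ∈ D, g * d * g⁻¹ ∈ D) {x : G}
    (h : Seen D x) (g : G) : Seen D (g * x * g⁻¹) := by
  obtain ⟨f, hf⟩ : ∃ f : G → G, f = fun y => g⁻¹ * y * g := ⟨_, rfl⟩
  have hfm : ∀ p q, f (p * q) = f p * f q := fun p q => by subst hf; group
  have hfx : f (g * x * g⁻¹) = x := by subst hf; group
  have hfi : Function.Injective f := fun p q e => by
    subst hf; exact mul_left_cancel (mul_right_cancel e)
  have hfc : ∀ {p q}, Commute (f p) (f q) ↔ Commute p q := fun {p q} => by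
    subst hf
    simpa using H17.commute_conj g⁻¹ (x := p) (y := q)
  have hfD : ∀ {p}, f p ∈ D ↔ p ∈ D := fun {p} => by
    subst hf
    refine ⟨fun h' => ?_, fun h' => by simpa using hconj g⁻¹ p h'⟩
    simpa [mul_assoc] using hconj g _ h'
  have hfS : ∀ {p q}, f p ∈ Sset D (f q) ↔ p ∈ Sset D q := fun {p q} => by
    simp only [Sset, Set.mem_setOf_eq, hfD, hfi.ne_iff, hfc]
  have hS : ∀ {p}, p ∈ Sset D (g * x * g⁻¹) → f p ∈ Sset D x := fun hp => hfx ▸ hfS.2 hp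
  refine ⟨fun p hp q hq hn => ?_, fun p hp q hq b hb c hc h1 h2 h3 h4 => ?_,
    fun p hp q hq h1 h2 h3 => ?_, fun p hp h1 => ?_,
    fun a ha b hb e he p hp q hq c1 c2 c3 n1 n2 n3 c4 n4 h5 h6 => ?_,
    fun a ha b hb e he y hy p hp q hq c1 c2 c3 n1 n2 n3 c4 c5 c6 n4 n5 n6 h7 => ?_,
    fun b hb e he c1 n1 => ?_, fun b hb => ?_⟩
  · have := h.braid _ (hS hp) _ (hS hq) (fun e => hn (hfc.1 e))
    rw [← hfm, ← hfm, ← hfm, ← hfm] at this
    exact hfi this
  · rcases h.pair _ (hS hp) _ (hS hq) _ (hS hb) _ (hS hc) (hfc.2 h1) (hfi.ne h2) (hfc.2 h3)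
      (by rw [← hfm, ← hfm, h4]) with e | e
    exacts [Or.inl (hfi e), Or.inr (hfi e)]
  · refine h.out _ (hS hp) _ (hS hq) (hfc.2 h1) (hfi.ne h2) ?_
    rw [← hfx, ← hfm, ← hfm]
    exact hfD.2 h3
  · refine h.pair_out _ (hS hp) ?_
    rw [← hfx, ← hfm]
    exact hfD.2 h1
  · refine h.triple_pair _ (hS ha) _ (hS hb) _ (hS he) _ (hS hp) _ (hS hq) (hfc.2 c1) (hfc.2 c2)
      (hfc.2 c3) (hfi.ne n1) (hfi.ne n2) (hfi.ne n3) (hfc.2 c4) (hfi.ne n4) ?_ ?_
    · rintro r (rfl | rfl | rfl)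
      · exact ⟨hfc.2 (h5 a (by simp)).1, hfc.2 (h5 a (by simp)).2⟩
      · exact ⟨hfc.2 (h5 b (by simp)).1, hfc.2 (h5 b (by simp)).2⟩
      · exact ⟨hfc.2 (h5 e (by simp)).1, hfc.2 (h5 e (by simp)).2⟩
    · rw [← hfx, ← hfm, ← hfm, ← hfm, ← hfm, h6]
  · exact hfc.1 (h.triple_triple _ (hS ha) _ (hS hb) _ (hS he) _ (hS hy) _ (hS hp) _ (hS hq)
      (hfc.2 c1) (hfc.2 c2) (hfc.2 c3) (hfi.ne n1) (hfi.ne n2) (hfi.ne n3) (hfc.2 c4) (hfc.2 c5)
      (hfc.2 c6) (hfi.ne n4) (hfi.ne n5) (hfi.ne n6) (by rw [← hfm, ← hfm, ← hfm, ← hfm, h7]))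
  · obtain ⟨r, hr, hrb, hre⟩ := h.common _ (hS hb) _ (hS he) (hfc.2 c1) (hfi.ne n1)
    obtain ⟨r', rfl⟩ : ∃ r', f r' = r := ⟨g * r * g⁻¹, by subst hf; group⟩
    exact ⟨r', hfS.1 (hfx.symm ▸ hr), hfS.1 hrb, hfS.1 hre⟩
  · obtain ⟨x₁, x₂, x₃, x₄, x₅, hm, hp⟩ := h.hexad _ (hS hb)
    have hsur : Function.Surjective f := fun r => ⟨g * r * g⁻¹, by subst hf; group⟩
    obtain ⟨y₁, rfl⟩ := hsur x₁
    obtain ⟨y₂, rfl⟩ := hsur x₂
    obtain ⟨y₃, rfl⟩ := hsur x₃
    obtain ⟨y₄, rfl⟩ := hsur x₄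
    obtain ⟨y₅, rfl⟩ := hsur x₅
    refine ⟨y₁, y₂, y₃, y₄, y₅, fun r hr => ?_, hfi (by
      rw [hfm, hfm, hfm, hfm, hp, hfm (g * x * g⁻¹) b, hfx])⟩
    have := hm (f r) (by rcases hr with rfl | rfl | rfl | rfl | rfl <;> simp)
    exact ⟨hfS.1 (hfx.symm ▸ this.1), hfS.1 this.2⟩

namespace Setting

variable {d : G} {π : ↥(centralizer ({d} : Set G)) →* Q} {z a : ↥(centralizer ({d} : Set G))}
  {E : Set Q} (hS : Setting d π z a E)
include hS

theorem sq : d * d = 1 := H17.mul_self_of_orderOf hS.hd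

theorem conj_mem (g : G) {x : G} (hx : x ∈ conjugatesOf d) : g * x * g⁻¹ ∈ conjugatesOf d :=
  (show IsConj d x from hx).trans (isConj_iff.2 ⟨g, rfl⟩)

theorem ord {x : G} (hx : x ∈ conjugatesOf d) : orderOf x = 2 := by
  obtain ⟨g, rfl⟩ := isConj_iff.1 (show IsConj d x from hx)
  rw [← MulAut.conj_apply, MulEquiv.orderOf_eq, hS.hd]

theorem mem_E {x : ↥(centralizer ({d} : Set G))} (hx : x ∈ conjugatesOf a) : π x ∈ E :=
  hS.cov.mem_D hS.ha hx

theorem ne_z {x : ↥(centralizer ({d} : Set G))} (hx : x ∈ conjugatesOf a) : x ≠ z := fun e =>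
  H17.ne_one_of_orderOf (hS.cov.cls.1.1 _ (hS.mem_E hx)) (by rw [e, hS.cov.piz])

/-- The lifts of one class are the further conjugates in the centralizer. -/
theorem mem_sset {p : G} : p ∈ Sset (conjugatesOf d) d ↔
    ∃ x : ↥(centralizer ({d} : Set G)), x ∈ conjugatesOf a ∧ (x : G) = p := by
  constructor
  · rintro ⟨hp, hne, hc⟩
    obtain ⟨x, rfl⟩ : ∃ x : ↥(centralizer ({d} : Set G)), (x : G) = p :=
      ⟨⟨p, mem_centralizer_singleton_iff.2 hc.symm.eq⟩, rfl⟩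
    refine ⟨x, ((hS.fus x).1 hp).resolve_left fun e => hne ?_, rfl⟩
    rw [e, hS.hz]
  · rintro ⟨x, hx, rfl⟩
    refine ⟨(hS.fus x).2 (Or.inr hx), fun e => hS.ne_z hx (Subtype.ext (e.trans hS.hz.symm)), ?_⟩
    exact (mem_centralizer_singleton_iff.1 x.2).symm

theorem inj {x y : ↥(centralizer ({d} : Set G))} (hx : x ∈ conjugatesOf a) (hy : y ∈ conjugatesOf a)
    (h : π x = π y) : x = y := hS.cov.inj hS.ha hx hy h

theorem pi_commute {x y : ↥(centralizer ({d} : Set G))} (hx : x ∈ conjugatesOf a)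
    (hy : y ∈ conjugatesOf a) : Commute (π x) (π y) ↔ Commute (x : G) (y : G) :=
  ⟨fun h => commute_coe.2 (hS.cov.comm_D (hS.mem_E hx) (hS.mem_E hy) h),
    fun h => (commute_coe.1 h).map π⟩

/-- A product of two commuting members is not a member. -/
theorem pair_not_mem {u v : Q} (hu : u ∈ E) (hv : v ∈ E) (hc : Commute u v) (hne : u ≠ v) :
    u * v ∉ E := by
  intro hm
  obtain ⟨T⟩ : Nonempty (Sylow 2 ↥(centralizer ({d} : Set G))) := inferInstance
  obtain ⟨B, A, hB, -, -, -⟩ := hS.cov.sylow_block T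
  have c1 : Commute u (u * v) := (Commute.refl u).mul_right hc
  have c2 : Commute v (u * v) := hc.symm.mul_right (Commute.refl v)
  obtain ⟨g, hg⟩ := hB.conj {u, v, u * v}
    (by rintro x (rfl | rfl | rfl) <;> assumption)
    (by
      rintro x (rfl | rfl | rfl) y (rfl | rfl | rfl) <;>
        first | exact Commute.refl _ | exact hc | exact hc.symm | exact c1 | exact c1.symm |
          exact c2 | exact c2.symm)
  refine (hB.base.pair_out _ (hg u (by simp)) _ (hg v (by simp)) ?_).1 ?_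
  · exact fun e => hne (mul_left_cancel (mul_right_cancel e))
  · have := hg (u * v) (by simp)
    rwa [show g * (u * v) * g⁻¹ = g * u * g⁻¹ * (g * v * g⁻¹) by group] at this

theorem seen_self : Seen (conjugatesOf d) d := by
  classical
  have hcl := hS.cov.cls_lift hS.ha
  refine ⟨fun p hp q hq hn => ?_, fun p hp q hq b hb c hc h1 h2 h3 h4 => ?_,
    fun p hp q hq h1 h2 h3 => ?_, fun p hp h1 => ?_,
    fun x hx y hy e he p hp q hq c1 c2 c3 n1 n2 n3 c4 n4 h5 h6 => ?_,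
    fun x hx b hb e he y hy p hp q hq c1 c2 c3 n1 n2 n3 c4 c5 c6 n4 n5 n6 h7 => ?_,
    fun b hb e he c1 n1 => ?_, fun b hb => ?_⟩
  · obtain ⟨p, hp', rfl⟩ := hS.mem_sset.1 hp
    obtain ⟨q, hq', rfl⟩ := hS.mem_sset.1 hq
    exact congrArg Subtype.val
      (H17.braid hcl.1 hp' hq' fun e => hn (commute_coe.2 e))
  · obtain ⟨p, hp', rfl⟩ := hS.mem_sset.1 hp
    obtain ⟨q, hq', rfl⟩ := hS.mem_sset.1 hq
    obtain ⟨b, hb', rfl⟩ := hS.mem_sset.1 hb
    obtain ⟨c, hc', rfl⟩ := hS.mem_sset.1 hc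
    rcases hS.cov.pair_eq' (hS.mem_E hp') (hS.mem_E hq') (hS.mem_E hb') (hS.mem_E hc')
      ((hS.pi_commute hp' hq').2 h1) (fun e => h2 (congrArg Subtype.val (hS.inj hp' hq' e)))
      ((hS.pi_commute hb' hc').2 h3) (by
        rw [← map_mul, ← map_mul]; exact congrArg π (Subtype.ext h4)) with ⟨e, -⟩ | ⟨e, -⟩
    · exact Or.inl (congrArg Subtype.val (hS.inj hp' hb' e))
    · exact Or.inr (congrArg Subtype.val (hS.inj hp' hc' e))
  · obtain ⟨p, hp', rfl⟩ := hS.mem_sset.1 hp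
    obtain ⟨q, hq', rfl⟩ := hS.mem_sset.1 hq
    have h3' : IsConj d ((z * p * q : ↥(centralizer ({d} : Set G))) : G) := by
      rw [Subgroup.coe_mul, Subgroup.coe_mul, hS.hz]; exact h3
    have hne : π p ≠ π q := fun e => h2 (congrArg Subtype.val (hS.inj hp' hq' e))
    rcases (hS.fus _).1 h3' with e | e
    · have e1 := congrArg π e
      rw [map_mul, map_mul, hS.cov.piz, one_mul] at e1
      exact hne ((inv_eq_of_mul_eq_one_right e1).symm.trans
        (H17.inv_self hS.cov.cls.1 (hS.mem_E hp'))).symm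
    · have e1 := hS.mem_E e
      rw [map_mul, map_mul, hS.cov.piz, one_mul] at e1
      exact hS.pair_not_mem (hS.mem_E hp') (hS.mem_E hq') ((hS.pi_commute hp' hq').2 h1) hne e1
  · obtain ⟨p, hp', rfl⟩ := hS.mem_sset.1 hp
    have h1' : IsConj d ((z * p : ↥(centralizer ({d} : Set G))) : G) := by
      rw [Subgroup.coe_mul, hS.hz]; exact h1
    rcases (hS.fus _).1 h1' with e | e
    · exact H17.ne_one_of_orderOf (hcl.1.1 _ hp') (mul_eq_left.1 e)
    · exact hS.cov.z1 (mul_eq_right.1 (hS.inj e hp' (hS.cov.pi_zmul p)))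
  · obtain ⟨x, hx', rfl⟩ := hS.mem_sset.1 hx
    obtain ⟨y, hy', rfl⟩ := hS.mem_sset.1 hy
    obtain ⟨e, he', rfl⟩ := hS.mem_sset.1 he
    obtain ⟨p, hp', rfl⟩ := hS.mem_sset.1 hp
    obtain ⟨q, hq', rfl⟩ := hS.mem_sset.1 hq
    obtain ⟨T⟩ : Nonempty (Sylow 2 ↥(centralizer ({d} : Set G))) := inferInstance
    obtain ⟨B, A, hB, -, -, -⟩ := hS.cov.sylow_block T
    have k1 := h5 _ (show (x : G) ∈ _ by simp)
    have k2 := h5 _ (show (y : G) ∈ _ by simp)
    have k3 := h5 _ (show (e : G) ∈ _ by simp)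
    have P := fun {u v : ↥(centralizer ({d} : Set G))} (hu : u ∈ conjugatesOf a)
      (hv : v ∈ conjugatesOf a) (h : Commute (u : G) (v : G)) => (hS.pi_commute hu hv).2 h
    obtain ⟨g, hg⟩ := hB.conj {π x, π y, π e, π p, π q}
      (by rintro w (rfl | rfl | rfl | rfl | rfl) <;> apply hS.mem_E <;> assumption)
      (by
        have p1 := P hx' hy' c1; have p2 := P hx' he' c2; have p3 := P hy' he' c3
        have p4 := P hp' hq' c4; have p5 := P hp' hx' k1.1; have p6 := P hp' hy' k2.1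
        have p7 := P hp' he' k3.1; have p8 := P hq' hx' k1.2; have p9 := P hq' hy' k2.2
        have p0 := P hq' he' k3.2
        rintro u (rfl | rfl | rfl | rfl | rfl) v (rfl | rfl | rfl | rfl | rfl) <;>
          first | exact Commute.refl _ | assumption | (apply Commute.symm; assumption))
    have nn : ∀ {u v : ↥(centralizer ({d} : Set G))}, u ∈ conjugatesOf a → v ∈ conjugatesOf a →
        (u : G) ≠ v → g * π u * g⁻¹ ≠ g * π v * g⁻¹ := fun hu hv h e' =>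
      h (congrArg Subtype.val (hS.inj hu hv (mul_left_cancel (mul_right_cancel e'))))
    refine (hB.base.triple_out _ (hg (π x) (by simp)) _ (hg (π y) (by simp)) _ (hg (π e) (by simp))
      (nn hx' hy' n1) (nn hx' he' n2) (nn hy' he' n3)).2.2 _ (hg (π p) (by simp)) _
      (hg (π q) (by simp)) (nn hp' hq' n4) ?_
    have e1 : π x * π y * π e = π p * π q := by
      rw [← map_mul, ← map_mul, ← map_mul, ← hS.cov.pi_zmul (x * y * e)]
      refine congrArg π (Subtype.ext ?_)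
      simp only [Subgroup.coe_mul, hS.hz]
      exact h6
    calc g * π x * g⁻¹ * (g * π y * g⁻¹) * (g * π e * g⁻¹) = g * (π x * π y * π e) * g⁻¹ := by
          group
      _ = _ := by rw [e1]; group
  · obtain ⟨x, hx', rfl⟩ := hS.mem_sset.1 hx
    obtain ⟨b, hb', rfl⟩ := hS.mem_sset.1 hb
    obtain ⟨e, he', rfl⟩ := hS.mem_sset.1 he
    obtain ⟨y, hy', rfl⟩ := hS.mem_sset.1 hy
    obtain ⟨p, hp', rfl⟩ := hS.mem_sset.1 hp
    obtain ⟨q, hq', rfl⟩ := hS.mem_sset.1 hq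
    refine (hS.pi_commute hy' hx').1 ?_
    obtain ⟨F, _, _, hCtx⟩ := hS.cov.exists_ctx'
    have nn : ∀ {u v : ↥(centralizer ({d} : Set G))}, u ∈ conjugatesOf a → v ∈ conjugatesOf a →
        (u : G) ≠ v → π u ≠ π v := fun hu hv h e' => h (congrArg Subtype.val (hS.inj hu hv e'))
    obtain ⟨t₁, t₂, t₃, h1, h2, h3, -, -, -, -, -, -, -, hall⟩ :=
      H89.M22.triples hCtx (hS.mem_E hx') (b := π b) (c := π e)
        ⟨hS.mem_E hb', (nn hx' hb' n1).symm, (hS.pi_commute hx' hb').2 c1⟩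
        ⟨hS.mem_E he', (nn hx' he' n2).symm, (hS.pi_commute hx' he').2 c2⟩
        ((hS.pi_commute hb' he').2 c3) (nn hb' he' n3)
    rcases hall _ (hS.mem_E hy') _ (hS.mem_E hp') _ (hS.mem_E hq') ((hS.pi_commute hy' hp').2 c4)
      ((hS.pi_commute hy' hq').2 c5) ((hS.pi_commute hp' hq').2 c6) (nn hy' hp' n4) (nn hy' hq' n5)
      (nn hp' hq' n6) (by
        simp only [← map_mul]; exact congrArg π (Subtype.ext (by
          simp only [Subgroup.coe_mul]; exact h7.symm)))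
      with e' | e' | e' | e' | e' | e'
    · rw [e']
    · rw [e']; exact ((hS.pi_commute hx' hb').2 c1).symm
    · rw [e']; exact ((hS.pi_commute hx' he').2 c2).symm
    · rw [e']; exact h1.1.2.2.symm
    · rw [e']; exact h2.1.2.2.symm
    · rw [e']; exact h3.1.2.2.symm
  · obtain ⟨b, hb', rfl⟩ := hS.mem_sset.1 hb
    obtain ⟨e, he', rfl⟩ := hS.mem_sset.1 he
    have hbe : π e ∈ Sset E (π b) := ⟨hS.mem_E he', fun h => n1 (congrArg Subtype.val
      (hS.inj he' hb' h)).symm, (hS.pi_commute hb' he').2 c1⟩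
    obtain ⟨r, hr, hre, hrc⟩ := Set.nonempty_of_ncard_ne_zero
      (show ({x | x ∈ Sset E (π b) ∧ x ≠ π e ∧ Commute (π e) x}).ncard ≠ 0 by
        rw [H43.M22.near_ncard hS.cov.cls hS.cov.prim hS.cov.h22 (hS.mem_E hb') hbe]; norm_num)
    obtain ⟨r', hr', rfl⟩ := hS.cov.onto hS.ha hr.1
    have hrS := hS.mem_sset.2 ⟨r', hr', rfl⟩
    exact ⟨r', hrS, ⟨hrS.1, fun h => hr.2.1 (congrArg π (Subtype.ext h)),
      (hS.pi_commute hb' hr').1 hr.2.2⟩, ⟨hrS.1, fun h => hre (congrArg π (Subtype.ext h)),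
      (hS.pi_commute he' hr').1 hrc⟩⟩
  · obtain ⟨b, hb', rfl⟩ := hS.mem_sset.1 hb
    obtain ⟨-, f, hfi, hfa, hfc, hfz⟩ := hS.hex
    obtain ⟨h, hh⟩ := isConj_iff.1 ((show IsConj a (f 0) from hfa 0).symm.trans
      (show IsConj a b from hb'))
    obtain ⟨k, hk⟩ : ∃ k : Fin 6 → ↥(centralizer ({d} : Set G)), ∀ i, k i = h * f i * h⁻¹ :=
      ⟨_, fun _ => rfl⟩
    have hka : ∀ i, k i ∈ conjugatesOf a := fun i => hk i ▸ hS.cov.conj_mem (hfa i) h
    have hk0 : k 0 = b := by rw [hk, hh]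
    have hne : ∀ i, i ≠ 0 → (k i : G) ∈ Sset (conjugatesOf d) d ∧
        (k i : G) ∈ Sset (conjugatesOf d) (b : G) := fun i hi => by
      have hm := hS.mem_sset.2 ⟨_, hka i, rfl⟩
      refine ⟨hm, hm.1, fun e => hi (hfi ?_), ?_⟩
      · have e' : k i = k 0 := (Subtype.ext e).trans hk0.symm
        rw [hk, hk] at e'
        exact mul_left_cancel (mul_right_cancel e')
      · rw [← hk0, hk, hk]
        exact commute_coe.2 ((H17.commute_conj h).2 (hfc 0 i))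
    refine ⟨k 1, k 2, k 3, k 4, k 5, ?_, ?_⟩
    · rintro r (rfl | rfl | rfl | rfl | rfl) <;> exact hne _ (by decide)
    · have hb2 : b * b = 1 := H17.sq_one hcl.1 hb'
      have e1 : b * (k 1 * k 2 * k 3 * k 4 * k 5) = z := by
        rw [← hk0]
        simp only [hk]
        calc h * f 0 * h⁻¹ * (h * f 1 * h⁻¹ * (h * f 2 * h⁻¹) * (h * f 3 * h⁻¹) *
              (h * f 4 * h⁻¹) * (h * f 5 * h⁻¹))
            = h * (f 0 * f 1 * f 2 * (f 3 * f 4 * f 5)) * h⁻¹ := by group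
          _ = z := by rw [hfz, ← (hS.cov.zc h).eq, mul_inv_cancel_right]
      have e2 : k 1 * k 2 * k 3 * k 4 * k 5 = z * b := by
        rw [(hS.cov.zc b).eq, ← e1, ← mul_assoc b b, hb2, one_mul]
      exact (congrArg Subtype.val e2).trans (congrArg (· * (b : G)) hS.hz)

/-- The picture around every conjugate. -/
theorem loc : Loc (conjugatesOf d) where
  conj g x hx := hS.conj_mem g hx
  ord x hx := hS.ord hx
  seen x hx := by
    obtain ⟨g, rfl⟩ := isConj_iff.1 (show IsConj d x from hx)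
    exact hS.seen_self.conj (fun g y hy => hS.conj_mem g hy) g
  two P hP := by
    obtain ⟨g, hg⟩ := hS.two P hP
    exact ⟨_, isConj_iff.2 ⟨g, rfl⟩, hg⟩

theorem partner {x : G} (hx : x ∈ conjugatesOf d) : ∃ b, b ∈ Sset (conjugatesOf d) x := by
  obtain ⟨g, rfl⟩ := isConj_iff.1 (show IsConj d x from hx)
  exact ⟨_, (sset_conj (fun g y hy => hS.conj_mem g hy) g).2
    (hS.mem_sset.2 ⟨a, mem_conjugatesOf_self, rfl⟩)⟩

theorem three_set : Cfsg.IsThreeTranspositionSet (conjugatesOf d) :=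
  hS.loc.three_set fun _ hx => hS.partner hx

/-- The partners generate the centralizer. -/
theorem closure_sset : closure (Sset (conjugatesOf d) d) = centralizer ({d} : Set G) := by
  have e : Sset (conjugatesOf d) d = (centralizer ({d} : Set G)).subtype '' conjugatesOf a := by
    ext p
    rw [hS.mem_sset]
    exact ⟨fun ⟨x, hx, e⟩ => ⟨x, hx, e⟩, fun ⟨x, hx, e⟩ => ⟨x, hx, e⟩⟩
  rw [e, ← MonoidHom.map_closure, (hS.cov.cls_lift hS.ha).2.2, ← MonoidHom.range_eq_map,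
    Subgroup.range_subtype]

theorem ncard_lift {S : Set Q} (hSE : S ⊆ E) :
    {p : G | ∃ x : ↥(centralizer ({d} : Set G)), x ∈ conjugatesOf a ∧ π x ∈ S ∧ (x : G) = p}.ncard =
      S.ncard := by
  classical
  obtain ⟨T, hT⟩ : ∃ T : Set ↥(centralizer ({d} : Set G)),
      ∀ x, x ∈ T ↔ x ∈ conjugatesOf a ∧ π x ∈ S := ⟨{x | _ ∧ _}, fun _ => Iff.rfl⟩
  have e : π '' T = S := by
    ext u
    refine ⟨fun ⟨x, hx, e⟩ => e ▸ ((hT x).1 hx).2, fun hu => ?_⟩
    obtain ⟨x, hx, rfl⟩ := hS.cov.onto hS.ha (hSE hu)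
    exact ⟨x, (hT x).2 ⟨hx, hu⟩, rfl⟩
  have e2 : {p : G | ∃ x : ↥(centralizer ({d} : Set G)), x ∈ conjugatesOf a ∧ π x ∈ S ∧ (x : G) = p} =
      (centralizer ({d} : Set G)).subtype '' T := by
    ext p
    exact ⟨fun ⟨x, h1, h2, h3⟩ => ⟨x, (hT x).2 ⟨h1, h2⟩, h3⟩,
      fun ⟨x, hx, h3⟩ => ⟨x, ((hT x).1 hx).1, ((hT x).1 hx).2, h3⟩⟩
  rw [e2, Set.ncard_image_of_injective _ (Subgroup.subtype_injective _), ← e,
    Set.InjOn.ncard_image fun x hx y hy h => hS.inj ((hT x).1 hx).1 ((hT y).1 hy).1 h]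

theorem sset_ncard : (Sset (conjugatesOf d) d).ncard = 3510 := by
  rw [← (H43.M22.counts hS.cov.cls hS.cov.prim hS.cov.h22).1, ← hS.ncard_lift subset_rfl]
  congr 1
  ext p
  rw [hS.mem_sset]
  exact ⟨fun ⟨x, hx, e⟩ => ⟨x, hx, hS.mem_E hx, e⟩, fun ⟨x, hx, _, e⟩ => ⟨x, hx, e⟩⟩

theorem near_ncard {b : G} (hb : b ∈ Sset (conjugatesOf d) d) :
    ({x | x ∈ Sset (conjugatesOf d) d ∧ x ≠ b ∧ Commute b x}).ncard = 693 := by
  obtain ⟨b, hb', rfl⟩ := hS.mem_sset.1 hb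
  rw [← H43.M22.sset_ncard hS.cov.cls hS.cov.prim hS.cov.h22 (hS.mem_E hb'),
    ← hS.ncard_lift (S := Sset E (π b)) fun _ h => h.1]
  congr 1
  ext p
  constructor
  · rintro ⟨hp, hne, hc⟩
    obtain ⟨x, hx, rfl⟩ := hS.mem_sset.1 hp
    exact ⟨x, hx, ⟨hS.mem_E hx, fun e => hne (congrArg Subtype.val (hS.inj hx hb' e)),
      (hS.pi_commute hb' hx).2 hc⟩, rfl⟩
  · rintro ⟨x, hx, ⟨-, hne, hc⟩, rfl⟩
    exact ⟨hS.mem_sset.2 ⟨x, hx, rfl⟩, fun e => hne (congrArg π (Subtype.ext e)),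
      (hS.pi_commute hb' hx).1 hc⟩

end Setting

end Cfsg.Agent.H24.Fi23
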