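import Cfsg.Agent.H24.Fi23.Class
import Cfsg.Agent.H98.M22Lift
import Cfsg.Agent.H51.Quasisimple

/-!
A quasisimple centralizer of an involution with quotient of type M(22), not weakly closed: the class
of the involution and, from a model, the type M(23).
-/

set_option autoImplicit false

namespace Cfsg.Agent.H24.Fi23

open Subgroup

variable {G : Type*} [Group G] [Finite G]

/-- The setting from the hypotheses. -/
theorem exists_setting (d : G) (hd : orderOf d = 2)
    (hq : Cfsg.IsQuasisimple ↥(centralizer ({d} : Set G)))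
    [((zpowers d).subgroupOf (centralizer ({d} : Set G))).Normal]
    (htype : ∃ E : Set (↥(centralizer ({d} : Set G)) ⧸
        (zpowers d).subgroupOf (centralizer ({d} : Set G))),
      Cfsg.IsThreeTranspositionClass E ∧ Cfsg.IsOfTypeM22 _ E)
    (hnwc : ∃ g : G, g * d * g⁻¹ ∈ centralizer ({d} : Set G) ∧ g * d * g⁻¹ ≠ d) :
    ∃ z a E, Setting d (QuotientGroup.mk' ((zpowers d).subgroupOf (centralizer ({d} : Set G))))
      z a E := by
  classical
  obtain ⟨E, hE, h22⟩ := htype
  let π := QuotientGroup.mk' ((zpowers d).subgroupOf (centralizer ({d} : Set G)))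
  have hdd : d * d = 1 := H17.mul_self_of_orderOf hd
  let z : ↥(centralizer ({d} : Set G)) := ⟨d, mem_centralizer_singleton_iff.2 rfl⟩
  have hker : ∀ h : ↥(centralizer ({d} : Set G)), π h = 1 ↔ h = 1 ∨ h = z := by
    intro h
    rw [QuotientGroup.mk'_apply, QuotientGroup.eq_one_iff, mem_subgroupOf]
    constructor
    · intro hm
      obtain ⟨k, hk⟩ := mem_zpowers_iff.1 hm
      rcases Int.even_or_odd' k with ⟨m, rfl | rfl⟩
      · refine Or.inl (Subtype.ext ?_)
        rw [← hk, zpow_mul, zpow_two, hdd, one_zpow]; rfl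
      · refine Or.inr (Subtype.ext ?_)
        rw [← hk, zpow_add, zpow_mul, zpow_two, hdd, one_zpow, one_mul, zpow_one]
    · rintro (rfl | rfl)
      · exact one_mem _
      · exact mem_zpowers d
  have hzc : ∀ h : ↥(centralizer ({d} : Set G)), Commute z h := fun h => Subtype.ext
    (mem_centralizer_singleton_iff.1 h.2).symm
  have hsur : Function.Surjective π := QuotientGroup.mk'_surjective _
  have hQ : Cfsg.IsQuasisimple (↥(centralizer ({d} : Set G)) ⧸
      (zpowers d).subgroupOf (centralizer ({d} : Set G))) := by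
    obtain ⟨-, e, he, c, hc, hec, -⟩ := id h22
    haveI : Nontrivial (↥(centralizer ({d} : Set G)) ⧸
        (zpowers d).subgroupOf (centralizer ({d} : Set G))) :=
      ⟨⟨e, c, fun h => hec (h ▸ Commute.refl e)⟩⟩
    exact Cfsg.Agent.H51.quasisimple_of_surjective hq π hsur
  have hprim := Cfsg.Agent.H98.M22L.primitive_of_quasisimple hQ hE h22
  have hcov : H87.Fi23A.Cover π z E :=
    ⟨hsur, hker, hzc, Subtype.ext hdd,
      fun h => H17.ne_one_of_orderOf hd (congrArg Subtype.val h), hq.1.commutator_eq_top, hE,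
      hprim, h22⟩
  obtain ⟨⟨a, ha, hex, hfus⟩, htwo⟩ := H87.Fi23A.fusion rfl (z := z) rfl hcov hnwc
  exact ⟨z, a, E, ⟨hd, rfl, hcov, ha, hex, hfus, htwo⟩⟩

/-- The class is a class of 3-transpositions, and of type M(23) once a model is given. -/
theorem type_of_model (d : G) (hd : orderOf d = 2)
    (hq : Cfsg.IsQuasisimple ↥(centralizer ({d} : Set G)))
    [((zpowers d).subgroupOf (centralizer ({d} : Set G))).Normal]
    (htype : ∃ E : Set (↥(centralizer ({d} : Set G)) ⧸
        (zpowers d).subgroupOf (centralizer ({d} : Set G))),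
      Cfsg.IsThreeTranspositionClass E ∧ Cfsg.IsOfTypeM22 _ E)
    (hnwc : ∃ g : G, g * d * g⁻¹ ∈ centralizer ({d} : Set G) ∧ g * d * g⁻¹ ≠ d)
    {X : Type*} [Group X] [Finite X] {M : Set X}
    (hM : Cfsg.IsThreeTranspositionClass M) (hMprim : Cfsg.IsPrimitiveUnderConj M)
    (hMtyp : Cfsg.IsOfTypeM23 X M) :
    Cfsg.IsThreeTranspositionClass (conjugatesOf d) ∧
      Cfsg.IsOfTypeM23 G (conjugatesOf d) ∧ Nonempty (X ≃* G) := by
  obtain ⟨z, a, E, hS⟩ := exists_setting d hd hq htype hnwc
  obtain ⟨h1, e, -⟩ := hS.of_model hM hMprim hMtyp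
  exact ⟨hS.cls, h1, ⟨e⟩⟩

end Cfsg.Agent.H24.Fi23
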