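import Cfsg.Agent.H32.ReflSeven
import Cfsg.Prelude.Def_FischerSpaces

/-!
The reflection group of the sum of seven squares over the field with three elements, modulo its centre,
is the simple orthogonal group.
-/

set_option autoImplicit false

namespace Cfsg.Agent.H24.Fi23.Refl7

open QuadraticMap
open Cfsg.Agent

/-- coordinate space -/
abbrev V : Type := Fin 7 → ZMod 3

/-- the sum of seven squares -/
noncomputable def Q : QuadraticForm (ZMod 3) V :=
  QuadraticMap.weightedSumSquares (ZMod 3) (fun _ : Fin 7 => (1 : ZMod 3))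

theorem Q_eq (v : V) : Q v = ∑ i, v i * v i := by
  simp [Q, weightedSumSquares_apply]

theorem polar_eq (v x : V) : polar (⇑Q) v x = 2 * ∑ i, v i * x i := by
  rw [polar, Q_eq, Q_eq, Q_eq, Finset.mul_sum, ← Finset.sum_sub_distrib, ← Finset.sum_sub_distrib]
  exact Finset.sum_congr rfl fun i _ => by simp only [Pi.add_apply]; ring

theorem polar_single (v : V) (i : Fin 7) : polar (⇑Q) v (Pi.single i 1) = 2 * v i := by
  rw [polar_eq, Finset.sum_eq_single i (fun j _ h => by simp [h]) (fun h => absurd (Finset.mem_univ i) h),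
    Pi.single_eq_same, mul_one]

theorem nondeg : (polarBilin Q).Nondegenerate := by
  have h : ∀ x : V, (∀ y, polar (⇑Q) x y = 0) → x = 0 := fun x hx => funext fun i =>
    (mul_eq_zero.1 ((polar_single x i).symm.trans (hx _))).resolve_left (by decide)
  refine ⟨fun x hx => h x fun y => ?_, fun x hx => h x fun y => ?_⟩
  · simpa [polarBilin_apply_apply] using hx y
  · simpa [polarBilin_apply_apply, polar_comm] using hx y

theorem det_eq : Cfsg.polarGramDet (⇑Q) = -1 := by
  have h : (Matrix.of fun i j : Fin 7 => polar (⇑Q) (Pi.single i (1 : ZMod 3)) (Pi.single j 1)) =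
      Matrix.diagonal fun _ => (2 : ZMod 3) := by
    ext i j
    rw [Matrix.of_apply, polar_single, Matrix.diagonal_apply, Pi.single_apply]
    by_cases e : i = j
    · subst e; simp
    · rw [if_neg fun h => e h.symm, if_neg e, mul_zero]
  rw [Cfsg.polarGramDet, h, Matrix.det_diagonal]
  simp only [Finset.prod_const, Finset.card_univ, Fintype.card_fin]
  decide

/-- The projective reflection group is the simple orthogonal group. -/
theorem isProjReflection {X : Type*} [Group X]
    (e : X ≃* Cfsg.POmega (ZMod 3) (Cfsg.quadFormOdd 3 (ZMod 3))) :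
    Cfsg.IsProjReflectionGroupModThree X 7 (-1) 1 := by
  classical
  obtain ⟨R, hR⟩ : ∃ R, R = Cfsg.reflectionSubgroup (⇑Q) (1 : ZMod 3) := ⟨_, rfl⟩
  suffices h : Nonempty (↥R ⧸ Subgroup.center ↥R ≃*
      Cfsg.POmega (ZMod 3) (Cfsg.quadFormOdd 3 (ZMod 3))) by
    subst hR
    obtain ⟨e'⟩ := h
    exact ⟨Q, nondeg, det_eq, ⟨e.trans e'.symm⟩⟩
  subst hR
  obtain ⟨ι⟩ := H32.ReflSeven.isometry_equiv Q nondeg
  have hO : Nat.card (Cfsg.isometryGroup (ZMod 3) ⇑Q) = 18341406720 := by
    rw [Nat.card_congr ι.toEquiv, H4.card_isometryGroup _ (H4.coe_qOdd 3)]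
    have h1 := H4.card_qIsoms_qOdd (F := ZMod 3) (by decide) 3
    rw [ZMod.card] at h1
    norm_num [Finset.prod_range_succ] at h1
    exact_mod_cast h1
  have h1 := (Cfsg.reflectionSubgroup (⇑Q) (1 : ZMod 3)).card_mul_index
  rw [H17.Transv.reflectionSubgroup_index Q nondeg one_ne_zero (by norm_num), hO] at h1
  let eo := H5.isoEquiv Q (f := ⇑Q) rfl
  let R := Cfsg.reflectionSubgroup (⇑Q) (1 : ZMod 3)
  -- the determinant
  let δ : R →* (ZMod 3)ˣ :=
    (LinearEquiv.det : (V ≃ₗ[ZMod 3] V) →* (ZMod 3)ˣ).comp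
      ((H5.orth Q).subtype.comp (eo.toMonoidHom.comp R.subtype))
  have hone : ∀ z ∈ Subgroup.center R, δ z = 1 → z = 1 := by
    intro z hz hdet
    obtain ⟨t, ht, hzx⟩ := H32.ReflSeven.center_scalar (n := 7) (by norm_num) Q nondeg one_ne_zero hz
    have hψ : ((δ z : (ZMod 3)ˣ) : ZMod 3) = t ^ 7 := by
      show ((LinearEquiv.det (eo z.1 : V ≃ₗ[ZMod 3] V) : (ZMod 3)ˣ) : ZMod 3) = t ^ 7
      rw [LinearEquiv.coe_det,
        show ((eo z.1 : V ≃ₗ[ZMod 3] V) : V →ₗ[ZMod 3] V) = t • LinearMap.id from LinearMap.ext hzx,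
        LinearMap.det_smul, LinearMap.det_id, mul_one, Module.finrank_fin_fun]
    rw [hdet, Units.val_one] at hψ
    have ht1 : t = 1 := by
      rw [show t ^ 7 = (t * t) ^ 3 * t by ring, ht, one_pow, one_mul] at hψ
      exact hψ.symm
    have : eo z.1 = 1 := Subtype.ext (LinearEquiv.ext fun x => by
      rw [hzx x, ht1, one_smul]; rfl)
    exact Subtype.ext ((map_eq_one_iff eo eo.injective).1 this)
  -- minus one
  obtain ⟨m, hm, hm1⟩ : ∃ m ∈ Subgroup.center R, m ≠ 1 := by
    have hu : ∀ i : Fin 7, Q (Pi.single i 1 : V) = 1 := fun i => by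
      rw [Q_eq, Finset.sum_eq_single i (fun j _ h => by simp [h]) (fun h => absurd (Finset.mem_univ i) h)]
      simp
    let r : Fin 7 → R := fun i => ⟨eo.symm (H5.refl Q (Pi.single i 1)),
      Subgroup.subset_closure ⟨Pi.single i 1, hu i,
        (H5.isoEquiv_eq_refl_iff Q rfl _ _).2 (eo.apply_symm_apply _)⟩⟩
    obtain ⟨m, hmdef⟩ : ∃ m : R, m = r 0 * r 1 * r 2 * r 3 * r 4 * r 5 * r 6 := ⟨_, rfl⟩
    have hap : ∀ i x, ((H5.refl Q (Pi.single i 1) : H5.orth Q) : V ≃ₗ[ZMod 3] V) x =
        Function.update x i (-(x i)) := fun i x => by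
      rw [H5.refl_apply, hu i, inv_one, one_mul, polar_comm, polar_single]
      funext j
      by_cases e : j = i
      · subst e
        simp only [Pi.sub_apply, Pi.smul_apply, Pi.single_eq_same, Function.update_self, smul_eq_mul,
          mul_one]
        ring
      · simp [e]
    have hmx : ∀ x : V, ((eo m.1 : H5.orth Q) : V ≃ₗ[ZMod 3] V) x = -x := fun x => by
      have e : eo m.1 = H5.refl Q (Pi.single 0 1) * H5.refl Q (Pi.single 1 1) *
          H5.refl Q (Pi.single 2 1) * H5.refl Q (Pi.single 3 1) * H5.refl Q (Pi.single 4 1) *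
          H5.refl Q (Pi.single 5 1) * H5.refl Q (Pi.single 6 1) := by
        simp only [hmdef, r, Subgroup.coe_mul, map_mul, MulEquiv.apply_symm_apply]
      rw [e]
      simp only [Subgroup.coe_mul, LinearEquiv.mul_apply, hap]
      funext j
      fin_cases j <;> simp
    refine ⟨m, Subgroup.mem_center_iff.2 fun g => Subtype.ext (eo.injective ?_), fun h => ?_⟩
    · rw [Subgroup.coe_mul, Subgroup.coe_mul, map_mul, map_mul]
      refine Subtype.ext (LinearEquiv.ext fun x => ?_)
      simp only [Subgroup.coe_mul, LinearEquiv.mul_apply, hmx, map_neg]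
    · have e := hmx (Pi.single 0 1)
      rw [h] at e
      simp only [OneMemClass.coe_one, map_one] at e
      have e0 := congrFun e 0
      simp at e0
      exact absurd e0 (by decide)
  have hc2 : Nat.card (Subgroup.center R) = 2 := by
    refine le_antisymm (H32.ReflSeven.card_center_le (n := 7) (by norm_num) Q nondeg one_ne_zero) ?_
    haveI : Nontrivial (Subgroup.center R) := ⟨⟨⟨m, hm⟩, 1, fun e => hm1 (congrArg Subtype.val e)⟩⟩
    exact Finite.one_lt_card
  have hX : Nat.card (R ⧸ Subgroup.center R) = 4585351680 := by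
    have h2 := (Subgroup.center R).card_mul_index
    rw [Subgroup.index_eq_card, hc2] at h2
    change Nat.card R * 2 = _ at h1
    omega
  have hZ : Subgroup.center (R ⧸ Subgroup.center R) = ⊥ := by
    rw [eq_bot_iff]
    intro q hq
    obtain ⟨z, rfl⟩ := QuotientGroup.mk_surjective q
    rw [Subgroup.mem_bot, QuotientGroup.eq_one_iff, Subgroup.mem_center_iff]
    intro g
    have hmem : z⁻¹ * g⁻¹ * z * g ∈ Subgroup.center R := by
      have e : ((z⁻¹ * g⁻¹ * z * g : R) : R ⧸ Subgroup.center R) = 1 := by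
        simp only [QuotientGroup.mk_mul, QuotientGroup.mk_inv]
        rw [mul_assoc, ← Subgroup.mem_center_iff.1 hq (g : R ⧸ Subgroup.center R)]
        group
      exact (QuotientGroup.eq_one_iff _).1 e
    have h3 := hone _ hmem (by
      simp only [map_mul, map_inv]
      rw [mul_comm ((δ z)⁻¹) ((δ g)⁻¹), mul_assoc ((δ g)⁻¹), inv_mul_cancel, mul_one,
        inv_mul_cancel])
    calc g * z = g * z * (z⁻¹ * g⁻¹ * z * g) := by rw [h3, mul_one]
      _ = z * g := by group
  exact (H32.ReflSeven.proj_seven (X := R ⧸ Subgroup.center R) (μ := -1) (c₃ := 1) one_ne_zero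
    ⟨Q, nondeg, det_eq, ⟨MulEquiv.refl _⟩⟩).2 hX.le hZ

end Cfsg.Agent.H24.Fi23.Refl7
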