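import Cfsg.Agent.H87.Fi23A.Near23
import Cfsg.Agent.H25.M22O7.Triple
import Cfsg.Agent.H24.Fi23.Refl7

/-!
Type M(23) from eight common partners of a non-commuting pair on the diagram of `O₇(3)`.
-/

set_option autoImplicit false
set_option linter.unusedSectionVars false

namespace Cfsg.Agent.H24.Fi23

open Subgroup
open Cfsg.Agent.H43.FischerTwins
open Cfsg.Agent.H25.M22O7 (Pairs thetaVal zVal map_prodW map_letterSub thetaW coxSevenW)
open Cfsg.Agent.H16.CoxEnum (letterSub)

variable {G : Type*} [Group G] [Finite G] {D : Set G}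

/-- The joint centralizer of two non-commuting members. -/
theorem card_far_pair (hD : Cfsg.IsThreeTranspositionClass D)
    (hprim : Cfsg.IsPrimitiveUnderConj D) (h23 : H87.Fi23A.Near23 D) {d c : G} (hd : d ∈ D)
    (hc : c ∈ D) (hdc : ¬ Commute d c)
    (hcard : Nat.card ↥(centralizer ({d} : Set G)) = 129123503308800) :
    Nat.card ↥(centralizer ({d} : Set G) ⊓ centralizer ({c} : Set G)) = 4585351680 := by
  have hG := H17.class_conj hD
  have hw := H87.Fi23A.width_pair hD hprim h23
  have hfar : {y : G | y ∈ D ∧ ¬ Commute d y}.ncard = 28160 := by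
    have h1 := (H87.Fi23A.counts hD hprim h23).1
    have h2 := H87.Fi23A.sset_ncard hD hprim h23 hd
    have hins : insert d (Sset D d) = D \ {y : G | y ∈ D ∧ ¬ Commute d y} := by
      ext y
      constructor
      · rintro (rfl | hy)
        · exact ⟨hd, fun e => e.2 (Commute.refl y)⟩
        · exact ⟨hy.1, fun e => e.2 hy.2.2⟩
      · rintro ⟨hy, hy'⟩
        rcases eq_or_ne y d with e | e
        · exact Or.inl e
        · exact Or.inr ⟨hy, e, not_not.1 fun hc => hy' ⟨hy, hc⟩⟩
    have h3 := congrArg Set.ncard hins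
    rw [Set.ncard_insert_of_notMem (fun e => e.2.1 rfl) (Set.toFinite _),
      Set.ncard_diff (fun y hy => hy.1) (Set.toFinite _), h1, h2] at h3
    omega
  let K : Subgroup (ConjAct G) :=
    (centralizer ({d} : Set G)).map (ConjAct.toConjAct : G ≃* ConjAct G).toMonoidHom
  have horb : MulAction.orbit K c = {y : G | y ∈ D ∧ ¬ Commute d y} := by
    ext y
    constructor
    · rintro ⟨⟨_, g, hg, rfl⟩, rfl⟩
      show ConjAct.toConjAct g • c ∈ _
      rw [ConjAct.toConjAct_smul]
      refine ⟨hG g c hc, fun e => hdc ((H17.commute_conj g).1 ?_)⟩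
      rwa [show g * d * g⁻¹ = d by
        rw [mem_centralizer_singleton_iff.1 hg, mul_inv_cancel_right]]
    · rintro ⟨hy, hdy⟩
      obtain ⟨k, hk, hky⟩ := H17.transitive_far hD hprim hw hd hc hy hdc hdy
      refine ⟨⟨ConjAct.toConjAct k, k,
        mem_centralizer_singleton_iff.2 (H17.centGen_commute hk).symm.eq, rfl⟩, ?_⟩
      show ConjAct.toConjAct k • c = y
      rw [ConjAct.toConjAct_smul, hky]
  have hidx := MulAction.index_stabilizer K c
  rw [horb, hfar] at hidx
  have hst : (MulAction.stabilizer K c).map K.subtype =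
      (centralizer ({d} : Set G) ⊓ centralizer ({c} : Set G)).map
        (ConjAct.toConjAct : G ≃* ConjAct G).toMonoidHom := by
    ext x
    constructor
    · rintro ⟨⟨_, g, hg, rfl⟩, hgc, rfl⟩
      refine ⟨g, ⟨hg, mem_centralizer_singleton_iff.2 ?_⟩, rfl⟩
      have : g * c * g⁻¹ = c := (ConjAct.toConjAct_smul g c).symm.trans hgc
      exact mul_inv_eq_iff_eq_mul.1 this
    · rintro ⟨g, ⟨hg, hgc⟩, rfl⟩
      refine ⟨⟨_, g, hg, rfl⟩, ?_, rfl⟩
      show ConjAct.toConjAct g • c = c
      rw [ConjAct.toConjAct_smul, mem_centralizer_singleton_iff.1 hgc, mul_inv_cancel_right]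
  have hm := (MulAction.stabilizer K c).card_mul_index
  rw [hidx, ← card_subtype, hst,
    card_map_of_injective (ConjAct.toConjAct : G ≃* ConjAct G).injective,
    card_map_of_injective (ConjAct.toConjAct : G ≃* ConjAct G).injective, hcard] at hm
  omega

/-- Type M(23) from eight common partners. -/
theorem type_of_config (hD : Cfsg.IsThreeTranspositionClass D)
    (hprim : Cfsg.IsPrimitiveUnderConj D) (h23 : H87.Fi23A.Near23 D) {d c : G} (hd : d ∈ D)
    (hc : c ∈ D) (hdc : ¬ Commute d c)
    (hcard : Nat.card ↥(centralizer ({d} : Set G)) = 129123503308800) (s : Nat → G)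
    (hmem : ∀ g, g < 8 → s g ∈ Sset D d ∩ Sset D c) (hP : Pairs s 8)
    (hθ : (thetaVal s * s 7) ^ 3 = 1) (hz : zVal s = 1) (hne : ¬ Commute (s 0) (s 1)) :
    Cfsg.IsOfTypeM23 G D := by
  classical
  refine ⟨h23.cen, d, hd, c, hc, hdc, (H87.Fi23A.Near23.localAll hD hprim h23 hd).2.2, 1, one_ne_zero, ?_⟩
  obtain ⟨A, hA⟩ : ∃ A, A = centralizer ({d} : Set G) ⊓ centralizer ({c} : Set G) := ⟨_, rfl⟩
  have hcA : Nat.card ↥A = 4585351680 := hA ▸ card_far_pair hD hprim h23 hd hc hdc hcard
  obtain ⟨L, hL⟩ : ∃ L, L = closure (Sset D d ∩ Sset D c) := ⟨_, rfl⟩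
  have hLA : L ≤ A := by
    rw [hL, closure_le, hA]
    exact fun x hx => ⟨mem_centralizer_singleton_iff.2 hx.1.2.2.symm.eq,
      mem_centralizer_singleton_iff.2 hx.2.2.2.symm.eq⟩
  let t : Nat → ↥L := fun g => if hg : g < 8 then ⟨s g, hL ▸ subset_closure (hmem g hg)⟩ else 1
  have ht : ∀ g, g < 8 → ((t g : ↥L) : G) = s g := fun g hg => by simp [t, hg]
  have htP : Pairs t 8 := by
    refine ⟨fun g => ?_, fun a b ha hb hab hadj => Subtype.ext ?_, fun a b ha hb hadj => Subtype.ext ?_⟩
    · by_cases hg : g < 8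
      · exact Subtype.ext (by rw [Subgroup.coe_mul, ht g hg]; exact hP.sq g)
      · simp [t, hg]
    · rw [Subgroup.coe_mul, Subgroup.coe_mul, ht a ha, ht b hb]
      exact (hP.com a b ha hb hab hadj).eq
    · rw [Subgroup.coe_pow, Subgroup.coe_mul, ht a ha, ht b hb]
      exact hP.braid a b ha hb hadj
  have hword : ∀ w : List Nat, (∀ g ∈ w, g < 8) →
      ((w.map (L.subtype ∘ t)).prod) = (w.map s).prod := fun w hw =>
    congrArg List.prod (List.map_congr_left fun g hg => ht g (hw g hg))
  have htθ : (thetaVal t * t 7) ^ 3 = 1 := Subtype.ext (by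
    rw [Subgroup.coe_pow, Subgroup.coe_mul, ht 7 (by norm_num), ← Subgroup.coe_subtype,
      (map_prodW _ _).1]
    rw [show thetaVal (L.subtype ∘ t) = thetaVal s from hword thetaW (by decide)]
    exact hθ)
  have htz : zVal t = 1 := Subtype.ext (by
    rw [← Subgroup.coe_subtype, (map_prodW _ _).2]
    rw [show zVal (L.subtype ∘ t) = zVal s from
      congrArg (· ^ 9) (hword coxSevenW (by decide))]
    exact hz)
  have htne : ¬ Commute (t 0) (t 1) := fun e => hne (by
    have := commute_coe.2 e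
    rwa [ht 0 (by norm_num), ht 1 (by norm_num)] at this)
  have hLcard : Nat.card ↥L ∣ 4585351680 := hcA ▸ Subgroup.card_dvd_of_le hLA
  obtain ⟨e⟩ := H25.M22O7.o7_of_config (fun h => by
    have := h.trans hLcard
    norm_num at this) t htP htθ htz htne
  have hall : letterSub t (List.range 8) = ⊤ := by
    refine Subgroup.eq_top_of_card_eq _ (le_antisymm (Subgroup.card_le_card_group _) ?_)
    rw [Nat.card_congr e.toEquiv, H16.O7Iso.card_eq]
    exact hcA ▸ Subgroup.card_le_of_le hLA
  let φ : ↥L ≃* H16.O7U.Grp := (topEquiv.symm.trans (MulEquiv.subgroupCongr hall.symm)).trans e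
  haveI := H16.O7Order.isSimple
  have hZ : center ↥L = ⊥ := by
    rw [eq_bot_iff]
    intro z hz'
    have hφ : φ z ∈ center H16.O7U.Grp := mem_center_iff.2 fun u => φ.symm.injective (by
      rw [map_mul, map_mul, φ.symm_apply_apply]; exact mem_center_iff.1 hz' _)
    rcases (inferInstance : (center H16.O7U.Grp).Normal).eq_bot_or_eq_top with hb | ht'
    · rw [hb, mem_bot] at hφ
      exact mem_bot.2 ((map_eq_one_iff φ φ.injective).1 hφ)
    · refine absurd (φ.injective ?_) htne
      rw [map_mul, map_mul]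
      exact mem_center_iff.1 (ht' ▸ mem_top (φ (t 1))) (φ (t 0))
  obtain ⟨ω⟩ := H16.O7Iso.nonempty_equiv_pOmega
  have := Refl7.isProjReflection (X := ↥L ⧸ center ↥L)
    ((((QuotientGroup.quotientMulEquivOfEq hZ).trans QuotientGroup.quotientBot).trans φ).trans ω)
  subst hL
  exact this

end Cfsg.Agent.H24.Fi23
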